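import Groth.Agent.FlatB.PushRing
import Groth.Agent.Sga4B.PushoutQuot
import Mathlib.Algebra.Category.Ring.Constructions
import Mathlib.RingTheory.FiniteType

/-!
# Fibre products of rings and base change

For `p : A → C` surjective and `q : B → C`, let `R = A ×_C B`. Given a commutative diagram
`A → A'`, `B → B'`, `C → C'` with `C' = A' ⊗_A C = B' ⊗_B C`, let `R' = A' ×_{C'} B'`. We show that
`A' = R' ⊗_R A` and `B' = R' ⊗_R B` and that `R → R'` is of finite type as soon as
`A → A'` and `B → B'` are of finite type.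
-/

set_option autoImplicit false

open CategoryTheory Limits TensorProduct
open Groth.Agent.FlatB.PushRing

universe u

namespace Groth.Agent.Old.H23.PushAlg

/-- Elements of a pushout of rings are sums of products. -/
theorem pushout_induction {R A B P : CommRingCat.{u}} {f : R ⟶ A} {g : R ⟶ B} {i : A ⟶ P}
    {j : B ⟶ P} (h : IsPushout f g i j) {motive : P → Prop} (hmul : ∀ a b, motive (i a * j b))
    (hadd : ∀ x y, motive x → motive y → motive (x + y)) (x : P) : motive x := by
  let _ := f.hom.toAlgebra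
  let _ := g.hom.toAlgebra
  have h2 := CommRingCat.isPushout_tensorProduct R A B
  have h3 : IsPushout f g (CommRingCat.ofHom (Algebra.TensorProduct.includeLeftRingHom (R := R) (A := A) (B := B)))
    (CommRingCat.ofHom (Algebra.TensorProduct.includeRight (R := R) (A := A) (B := B)).toRingHom) := h2
  let e : P ≅ CommRingCat.of (A ⊗[R] B) := h.isoPushout ≪≫ h3.isoPushout.symm
  have hl : ∀ a : A, e.inv (a ⊗ₜ 1) = i a := by
    intro a
    have : CommRingCat.ofHom (Algebra.TensorProduct.includeLeftRingHom (R := R) (A := A) (B := B)) ≫ e.inv = i := by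
      simp [e]
    exact congr($this a)
  have hr : ∀ b : B, e.inv (1 ⊗ₜ b) = j b := by
    intro b
    have : CommRingCat.ofHom (Algebra.TensorProduct.includeRight (R := R) (A := A) (B := B)).toRingHom ≫ e.inv = j := by
      simp [e]
    exact congr($this b)
  have hx : x = e.inv (e.hom x) := by
    rw [← CommRingCat.comp_apply, e.hom_inv_id]; rfl
  rw [hx]
  generalize e.hom x = y
  have hab : ∀ a b, e.inv (a ⊗ₜ[R] b) = i a * j b := by
    intro a b
    rw [← hl, ← hr, ← map_mul, Algebra.TensorProduct.tmul_mul_tmul, mul_one, one_mul]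
  induction y using TensorProduct.induction_on with
  | zero =>
    have := hmul 0 0
    rw [map_zero, zero_mul] at this
    rwa [map_zero]
  | tmul a b => rw [hab]; exact hmul a b
  | add y z hy hz => rw [map_add]; exact hadd _ _ hy hz

/-- The pushout of a surjection is a surjection with kernel generated by the original kernel. -/
theorem surjective_and_ker_of_isPushout {P Q C D : CommRingCat.{u}} {ρ : P ⟶ Q} {φ : P ⟶ C}
    {ψ : Q ⟶ D} {π : C ⟶ D} (h : IsPushout ρ φ ψ π) (hρ : Function.Surjective ρ) :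
    Function.Surjective π ∧ RingHom.ker π.hom = (RingHom.ker ρ.hom).map φ.hom := by
  have hs : Function.Surjective π := by
    intro d
    induction d using pushout_induction h with
    | hmul a b =>
      obtain ⟨a, rfl⟩ := hρ a
      refine ⟨φ a * b, ?_⟩
      have h1 : ψ (ρ a) = π (φ a) := congr($(h.w) a)
      rw [map_mul, ← h1]
    | hadd x y hx hy =>
      obtain ⟨x, rfl⟩ := hx
      obtain ⟨y, rfl⟩ := hy
      exact ⟨x + y, map_add _ _ _⟩
  refine ⟨hs, le_antisymm ?_ ?_⟩
  · -- use the quotient by the ideal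
    set J : Ideal C := (RingHom.ker ρ.hom).map φ.hom with hJ
    obtain ⟨δ, hδ⟩ := Groth.Agent.Sga4B.PushoutQuot.exists_lift ρ.hom hρ
      ((Ideal.Quotient.mk J).comp φ.hom) (by
        intro x hx
        rw [RingHom.mem_ker, RingHom.comp_apply, Ideal.Quotient.eq_zero_iff_mem]
        exact Ideal.mem_map_of_mem _ hx)
    let d : D ⟶ CommRingCat.of (C ⧸ J) := h.desc (CommRingCat.ofHom δ)
      (CommRingCat.ofHom (Ideal.Quotient.mk J)) (by ext x; exact hδ x)
    intro x hx
    have h1 : d (π x) = Ideal.Quotient.mk J x :=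
      congr($(h.inr_desc (CommRingCat.ofHom δ) (CommRingCat.ofHom (Ideal.Quotient.mk J))
        (by ext x; exact hδ x)) x)
    rw [show π x = 0 from hx, map_zero] at h1
    exact Ideal.Quotient.eq_zero_iff_mem.mp h1.symm
  · rw [Ideal.map_le_iff_le_comap]
    intro x hx
    rw [Ideal.mem_comap, RingHom.mem_ker]
    have h1 : ψ (ρ x) = π (φ x) := congr($(h.w) x)
    refine h1.symm.trans ?_
    rw [show ρ x = 0 from hx, map_zero]

section

variable {A B C A' B' C' : Type u} [CommRing A] [CommRing B] [CommRing C] [CommRing A']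
  [CommRing B'] [CommRing C'] {p : A →+* C} {q : B →+* C} {p' : A' →+* C'} {q' : B' →+* C'}
  {α : A →+* A'} {β : B →+* B'} {γ : C →+* C'}
  (hA : p'.comp α = γ.comp p) (hB : q'.comp β = γ.comp q)

/-- The induced map of fibre products. -/
abbrev rho : eqL p q →+* eqL p' q' := eqL.map α γ β hA hB

include hA in
theorem zero_mem_aux (x : A) (hx : p x = 0) : p' (α x) = 0 := by
  have := RingHom.congr_fun hA x
  simp only [RingHom.comp_apply] at this
  rw [this, hx, map_zero]

variable (H2 : IsPushout (CommRingCat.ofHom q) (CommRingCat.ofHom β) (CommRingCat.ofHom γ)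
    (CommRingCat.ofHom q')) (hp : Function.Surjective p) (hp' : Function.Surjective p')

section

variable {M : CommRingCat.{u}} {mA : CommRingCat.of A ⟶ M} {mR : CommRingCat.of (eqL p' q') ⟶ M}
  {θ : M ⟶ CommRingCat.of A'} (hθA : mA ≫ θ = CommRingCat.ofHom α)
  (hθR : mR ≫ θ = CommRingCat.ofHom (eqL.fst p' q'))

include H2 hp hp' hθA hθR hA in
theorem theta_surjective : Function.Surjective θ := by
  have hA' : ∀ a, θ (mA a) = α a := fun a => congr($hθA a)
  have hR' : ∀ r : eqL p' q', θ (mR r) = r.1.1 := fun r => congr($hθR r)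
  have key : ∀ c' : C', ∃ m : M, p' (θ m) = c' := by
    intro c'
    induction c' using pushout_induction H2 with
    | hmul c b' =>
      obtain ⟨a, rfl⟩ := hp c
      obtain ⟨a', ha'⟩ := hp' (q' b')
      refine ⟨mA a * mR ⟨(a', b'), ha'⟩, ?_⟩
      have h1 := RingHom.congr_fun hA a
      simp only [RingHom.comp_apply] at h1
      rw [map_mul, hA', hR', map_mul, h1, ha']
      rfl
    | hadd x y hx hy =>
      obtain ⟨x, rfl⟩ := hx
      obtain ⟨y, rfl⟩ := hy
      exact ⟨x + y, by rw [map_add, map_add]⟩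
  intro a'
  obtain ⟨m, hm⟩ := key (p' a')
  refine ⟨m + mR ⟨(a' - θ m, 0), ?_⟩, ?_⟩
  · rw [mem_eqL]
    change p' (a' - θ m) = q' 0
    rw [map_sub, hm, sub_self, map_zero]
  · rw [map_add, hR']
    change θ m + (a' - θ m) = a'
    ring

end

variable (H1 : IsPushout (CommRingCat.ofHom p) (CommRingCat.ofHom α) (CommRingCat.ofHom γ)
    (CommRingCat.ofHom p'))

include H1 H2 hp in
/-- The kernel of `R' → B'` is generated by the kernel of `R → B`. -/
theorem mem_map_ker (x : eqL p' q') (hx : x.1.2 = 0) :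
    x ∈ (RingHom.ker (eqL.snd p q)).map (rho hA hB) := by
  have hsk := surjective_and_ker_of_isPushout H1 hp
  have hp' : Function.Surjective p' := hsk.1
  -- an arbitrary pushout `M`
  obtain ⟨M, mA, mR, hM⟩ : ∃ (M : CommRingCat.{u}) (mA : CommRingCat.of A ⟶ M)
      (mR : CommRingCat.of (eqL p' q') ⟶ M),
      IsPushout (CommRingCat.ofHom (eqL.fst p q)) (CommRingCat.ofHom (rho hA hB)) mA mR :=
    ⟨_, _, _, IsPushout.of_hasPushout _ _⟩
  let θ : M ⟶ CommRingCat.of A' := hM.desc (CommRingCat.ofHom α) (CommRingCat.ofHom (eqL.fst p' q'))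
    (by ext x; rfl)
  have hθA : mA ≫ θ = CommRingCat.ofHom α := hM.inl_desc _ _ _
  have hθR : mR ≫ θ = CommRingCat.ofHom (eqL.fst p' q') := hM.inr_desc _ _ _
  have hA' : ∀ a, θ (mA a) = α a := fun a => congr($hθA a)
  have hR' : ∀ r : eqL p' q', θ (mR r) = r.1.1 := fun r => congr($hθR r)
  have hsurj : Function.Surjective θ := theta_surjective hA H2 hp hp' hθA hθR
  have hx1 : x.1.1 ∈ (RingHom.ker p).map α := by
    have h1 : x.1.1 ∈ RingHom.ker p' := by
      rw [RingHom.mem_ker, eqL_prop x, hx, map_zero]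
    have h2 : RingHom.ker p' = (RingHom.ker p).map α := hsk.2
    rwa [h2] at h1
  have key : ∀ d ∈ (RingHom.ker p).map α, ∃ y : eqL p' q', y.1.1 = d ∧ y.1.2 = 0 ∧
      y ∈ (RingHom.ker (eqL.snd p q)).map (rho hA hB) := by
    intro d hd
    refine Submodule.closure_induction (p := fun d _ => ∃ y : eqL p' q', y.1.1 = d ∧ y.1.2 = 0 ∧
      y ∈ (RingHom.ker (eqL.snd p q)).map (rho hA hB)) ?_ ?_ ?_ hd
    · exact ⟨0, rfl, rfl, Ideal.zero_mem _⟩
    · rintro a b - - ⟨y, hy1, hy2, hy3⟩ ⟨z, hz1, hz2, hz3⟩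
      refine ⟨y + z, ?_, ?_, Ideal.add_mem _ hy3 hz3⟩
      · change y.1.1 + z.1.1 = a + b
        rw [hy1, hz1]
      · change y.1.2 + z.1.2 = 0
        rw [hy2, hz2, add_zero]
    · rintro r _ ⟨k, hk, rfl⟩
      obtain ⟨m, rfl⟩ := hsurj r
      have hk0 : p k = 0 := hk
      induction m using pushout_induction hM with
      | hmul a r =>
        have hak : p (a * k) = 0 := by rw [map_mul, hk0, mul_zero]
        let z : eqL p q := ⟨(a * k, 0), by rw [mem_eqL]; change p (a * k) = q 0; rw [hak, map_zero]⟩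
        refine ⟨r * rho hA hB z, ?_, ?_, ?_⟩
        · change r.1.1 * α (a * k) = θ (mA a * mR r) • α k
          rw [smul_eq_mul, map_mul, map_mul, hA', hR']
          change r.1.1 * (α a * α k) = α a * r.1.1 * α k
          ring
        · change r.1.2 * β 0 = 0
          rw [map_zero, mul_zero]
        · exact Ideal.mul_mem_left _ _ (Ideal.mem_map_of_mem _ (by rw [RingHom.mem_ker]; rfl))
      | hadd m m' h h' =>
        obtain ⟨y, hy1, hy2, hy3⟩ := h
        obtain ⟨z, hz1, hz2, hz3⟩ := h'
        refine ⟨y + z, ?_, ?_, Ideal.add_mem _ hy3 hz3⟩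
        · change y.1.1 + z.1.1 = _
          rw [hy1, hz1, map_add, add_smul]
        · change y.1.2 + z.1.2 = 0
          rw [hy2, hz2, add_zero]
  obtain ⟨y, hy1, hy2, hy3⟩ := key _ hx1
  have : x = y := eqL.ext hy1.symm (hx.trans hy2.symm)
  rw [this]
  exact hy3

include H1 H2 hp in
/-- `B' = R' ⊗_R B`. -/
theorem isPushout_snd : IsPushout (CommRingCat.ofHom (eqL.snd p q))
    (CommRingCat.ofHom (rho hA hB)) (CommRingCat.ofHom β) (CommRingCat.ofHom (eqL.snd p' q')) := by
  refine Groth.Agent.Sga4B.PushoutQuot.isPushout_of_surjective _ _ _ _ (by ext x; rfl)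
    (eqL.snd_surjective hp) (eqL.snd_surjective (surjective_and_ker_of_isPushout H1 hp).1) ?_
  intro x hx
  exact mem_map_ker hA hB H2 hp H1 x hx

include H1 H2 hp in
/-- `A' = R' ⊗_R A`. -/
theorem isPushout_fst : IsPushout (CommRingCat.ofHom (eqL.fst p q))
    (CommRingCat.ofHom (rho hA hB)) (CommRingCat.ofHom α) (CommRingCat.ofHom (eqL.fst p' q')) := by
  have hsk := surjective_and_ker_of_isPushout H1 hp
  have hp' : Function.Surjective p' := hsk.1
  obtain ⟨M, mA, mR, hM⟩ : ∃ (M : CommRingCat.{u}) (mA : CommRingCat.of A ⟶ M)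
      (mR : CommRingCat.of (eqL p' q') ⟶ M),
      IsPushout (CommRingCat.ofHom (eqL.fst p q)) (CommRingCat.ofHom (rho hA hB)) mA mR :=
    ⟨_, _, _, IsPushout.of_hasPushout _ _⟩
  have hcomm : CommRingCat.ofHom (eqL.fst p q) ≫ CommRingCat.ofHom α =
      CommRingCat.ofHom (rho hA hB) ≫ CommRingCat.ofHom (eqL.fst p' q') := by ext x; rfl
  let θ : M ⟶ CommRingCat.of A' := hM.desc (CommRingCat.ofHom α) (CommRingCat.ofHom (eqL.fst p' q'))
    hcomm
  have hθA : mA ≫ θ = CommRingCat.ofHom α := hM.inl_desc _ _ _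
  have hθR : mR ≫ θ = CommRingCat.ofHom (eqL.fst p' q') := hM.inr_desc _ _ _
  have hA' : ∀ a, θ (mA a) = α a := fun a => congr($hθA a)
  have hR' : ∀ r : eqL p' q', θ (mR r) = r.1.1 := fun r => congr($hθR r)
  have hsurj : Function.Surjective θ := theta_surjective hA H2 hp hp' hθA hθR
  -- the pushout of `R → C`
  have hB1 := (isPushout_snd hA hB H2 hp H1).paste_horiz H2
  have hcommp : CommRingCat.ofHom (eqL.snd p q) ≫ CommRingCat.ofHom q =
      CommRingCat.ofHom (eqL.fst p q) ≫ CommRingCat.ofHom p := by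
    ext x; exact (eqL_prop x).symm
  have hcommp' : CommRingCat.ofHom (eqL.snd p' q') ≫ CommRingCat.ofHom q' =
      mR ≫ (θ ≫ CommRingCat.ofHom p') := by
    rw [← Category.assoc, hθR]
    ext x; exact (eqL_prop x).symm
  rw [hcommp, hcommp'] at hB1
  have hMC : IsPushout (CommRingCat.ofHom p) mA (CommRingCat.ofHom γ) (θ ≫ CommRingCat.ofHom p') := by
    refine hB1.of_left ?_ hM
    rw [← Category.assoc, hθA]
    exact H1.w
  have hker := (surjective_and_ker_of_isPushout hMC hp).2
  have hinj : Function.Injective θ := by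
    rw [injective_iff_map_eq_zero]
    intro t ht
    have ht1 : t ∈ (RingHom.ker p).map mA.hom := by
      have h1 : t ∈ RingHom.ker (θ ≫ CommRingCat.ofHom p').hom := by
        rw [RingHom.mem_ker]
        change p' (θ t) = 0
        rw [ht, map_zero]
      rw [hker] at h1
      exact h1
    have key : ∃ s : eqL p' q', s.1.2 = 0 ∧ mR s = t := by
      refine Submodule.closure_induction (p := fun t _ => ∃ s : eqL p' q', s.1.2 = 0 ∧ mR s = t)
        ?_ ?_ ?_ ht1
      · exact ⟨0, rfl, map_zero _⟩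
      · rintro a b - - ⟨y, hy1, hy2⟩ ⟨z, hz1, hz2⟩
        refine ⟨y + z, ?_, ?_⟩
        · change y.1.2 + z.1.2 = 0
          rw [hy1, hz1, add_zero]
        · rw [map_add, hy2, hz2]
      · rintro m _ ⟨k, hk, rfl⟩
        have hk0 : p k = 0 := hk
        induction m using pushout_induction hM with
        | hmul a r =>
          have hak : p (a * k) = 0 := by rw [map_mul, hk0, mul_zero]
          let z : eqL p q := ⟨(a * k, 0), by
            rw [mem_eqL]; change p (a * k) = q 0; rw [hak, map_zero]⟩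
          refine ⟨r * rho hA hB z, ?_, ?_⟩
          · change r.1.2 * β 0 = 0
            rw [map_zero, mul_zero]
          · have h1 : mA (a * k) = mR (rho hA hB z) := congr($(hM.w) z)
            rw [map_mul, ← h1, smul_eq_mul, map_mul]
            change _ = mA a * mR r * mA k
            ring
        | hadd m m' h h' =>
          obtain ⟨y, hy1, hy2⟩ := h
          obtain ⟨z, hz1, hz2⟩ := h'
          refine ⟨y + z, ?_, ?_⟩
          · change y.1.2 + z.1.2 = 0
            rw [hy1, hz1, add_zero]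
          · rw [map_add, hy2, hz2, add_smul]
    obtain ⟨s, hs1, rfl⟩ := key
    rw [hR'] at ht
    have : s = 0 := eqL.ext ht hs1
    rw [this, map_zero]
  have : IsIso θ := (ConcreteCategory.isIso_iff_bijective θ).mpr ⟨hinj, hsurj⟩
  exact IsPushout.of_iso hM (Iso.refl _) (Iso.refl _) (Iso.refl _) (asIso θ) (by simp) (by simp)
    (by simpa using hθA) (by simpa using hθR)

include H1 H2 hp in
/-- `R → R'` is of finite type if `A → A'` and `B → B'` are. -/
theorem finiteType_rho (hα : α.FiniteType) (hβ : β.FiniteType) : (rho hA hB).FiniteType := by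
  classical
  have hp' : Function.Surjective p' := (surjective_and_ker_of_isPushout H1 hp).1
  have hM := isPushout_fst hA hB H2 hp H1
  let _ : Algebra (eqL p q) (eqL p' q') := (rho hA hB).toAlgebra
  let _ : Algebra A A' := α.toAlgebra
  let _ : Algebra B B' := β.toAlgebra
  obtain ⟨S, hS⟩ : (⊤ : Subalgebra A A').FG := hα.out
  obtain ⟨T, hT⟩ : (⊤ : Subalgebra B B').FG := hβ.out
  -- elements of `A'` are combinations of elements of `R'`
  have h1 : ∀ a' : A', ∃ F : Finset (eqL p' q'),
      a' ∈ Algebra.adjoin A ((eqL.fst p' q') '' (F : Set (eqL p' q'))) := by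
    intro a'
    induction a' using pushout_induction hM with
    | hmul a r =>
      refine ⟨{r}, Subalgebra.mul_mem _ (Subalgebra.algebraMap_mem _ (show A from a)) ?_⟩
      exact Algebra.subset_adjoin ⟨r, by simp, rfl⟩
    | hadd x y hx hy =>
      obtain ⟨F, hF⟩ := hx
      obtain ⟨F', hF'⟩ := hy
      refine ⟨F ∪ F', Subalgebra.add_mem _ ?_ ?_⟩
      · exact Algebra.adjoin_mono (Set.image_mono (by simp)) hF
      · exact Algebra.adjoin_mono (Set.image_mono (by simp)) hF'
  choose F hF using h1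
  let F₁ : Finset (eqL p' q') := S.biUnion F
  have hF₁ : Algebra.adjoin A ((eqL.fst p' q') '' (F₁ : Set (eqL p' q'))) = ⊤ := by
    rw [← top_le_iff, ← hS]
    refine Algebra.adjoin_le ?_
    intro s hs
    refine Algebra.adjoin_mono (Set.image_mono ?_) (hF s)
    intro x hx
    simp only [F₁, Finset.coe_biUnion, Set.mem_iUnion]
    exact ⟨s, hs, hx⟩
  have hsnd : Function.Surjective (eqL.snd p' q') := eqL.snd_surjective hp'
  let G : Finset (eqL p' q') := T.image (Function.surjInv hsnd)
  let D : Subalgebra (eqL p q) (eqL p' q') := Algebra.adjoin (eqL p q) (↑(F₁ ∪ G) : Set (eqL p' q'))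
  have hρD : ∀ x : eqL p q, rho hA hB x ∈ D := fun x => D.algebraMap_mem x
  -- `D` surjects onto `B'`
  have h2 : ∀ b' : B', ∃ t ∈ D, eqL.snd p' q' t = b' := by
    intro b'
    have hb : b' ∈ Algebra.adjoin B (T : Set B') := by rw [hT]; trivial
    induction hb using Algebra.adjoin_induction with
    | mem x hx =>
      refine ⟨Function.surjInv hsnd x, Algebra.subset_adjoin ?_, Function.surjInv_eq hsnd x⟩
      simp only [Finset.coe_union, G, Finset.coe_image]
      exact Or.inr ⟨x, hx, rfl⟩
    | algebraMap b =>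
      obtain ⟨x, rfl⟩ := eqL.snd_surjective (q := q) hp b
      exact ⟨rho hA hB x, hρD x, rfl⟩
    | add x y _ _ hx hy =>
      obtain ⟨s, hs, rfl⟩ := hx
      obtain ⟨t, ht, rfl⟩ := hy
      exact ⟨s + t, D.add_mem hs ht, map_add _ _ _⟩
    | mul x y _ _ hx hy =>
      obtain ⟨s, hs, rfl⟩ := hx
      obtain ⟨t, ht, rfl⟩ := hy
      exact ⟨s * t, D.mul_mem hs ht, map_mul _ _ _⟩
  -- `A'` is spanned by the image of `D`
  let N : Submodule A A' := Submodule.span A ((eqL.fst p' q') '' (D : Set (eqL p' q')))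
  have hNmul : ∀ x ∈ N, ∀ y ∈ N, x * y ∈ N := by
    intro x hx y hy
    have h3 := Submodule.mul_mem_mul hx hy
    rw [Submodule.span_mul_span] at h3
    refine Submodule.span_mono ?_ h3
    rintro _ ⟨_, ⟨s, hs, rfl⟩, _, ⟨t, ht, rfl⟩, rfl⟩
    exact ⟨s * t, D.mul_mem hs ht, map_mul _ _ _⟩
  have h3 : ∀ a' : A', a' ∈ N := by
    intro a'
    have ha : a' ∈ Algebra.adjoin A ((eqL.fst p' q') '' (F₁ : Set (eqL p' q'))) := by
      rw [hF₁]; trivial
    induction ha using Algebra.adjoin_induction with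
    | mem x hx =>
      obtain ⟨y, hy, rfl⟩ := hx
      refine Submodule.subset_span ⟨y, Algebra.subset_adjoin ?_, rfl⟩
      simp only [Finset.coe_union]
      exact Or.inl hy
    | algebraMap a =>
      have h4 : (1 : A') ∈ N := Submodule.subset_span ⟨1, D.one_mem, map_one _⟩
      have h5 := N.smul_mem a h4
      rwa [Algebra.smul_def, mul_one] at h5
    | add x y _ _ hx hy => exact N.add_mem hx hy
    | mul x y _ _ hx hy => exact hNmul x hx y hy
  -- the kernel of `R' → B'` lies in `D`
  have h4 : ∀ n : A', ∀ k : A, p k = 0 → ∃ z ∈ D, z.1.1 = n * α k ∧ z.1.2 = 0 := by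
    intro n
    have hn := h3 n
    induction hn using Submodule.span_induction with
    | mem x hx =>
      intro k hk
      obtain ⟨t, ht, rfl⟩ := hx
      let z : eqL p q := ⟨(k, 0), by rw [mem_eqL]; change p k = q 0; rw [hk, map_zero]⟩
      refine ⟨t * rho hA hB z, D.mul_mem ht (hρD z), rfl, ?_⟩
      change t.1.2 * β 0 = 0
      rw [map_zero, mul_zero]
    | zero =>
      intro k hk
      exact ⟨0, D.zero_mem, by rw [zero_mul]; rfl, rfl⟩
    | add x y _ _ hx hy =>
      intro k hk
      obtain ⟨y, hy1, hy2, hy3⟩ := hx k hk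
      obtain ⟨z, hz1, hz2, hz3⟩ := hy k hk
      refine ⟨y + z, D.add_mem hy1 hz1, ?_, ?_⟩
      · change y.1.1 + z.1.1 = _
        rw [hy2, hz2, add_mul]
      · change y.1.2 + z.1.2 = 0
        rw [hy3, hz3, add_zero]
    | smul a x _ hx =>
      intro k hk
      obtain ⟨y, hy1, hy2, hy3⟩ := hx (a * k) (by rw [map_mul, hk, mul_zero])
      refine ⟨y, hy1, ?_, hy3⟩
      rw [hy2, map_mul, Algebra.smul_def]
      change x * (α a * α k) = α a * x * α k
      ring
  have h5 : ∀ y : eqL p' q', y.1.2 = 0 → y ∈ D := by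
    intro y hy
    have h6 := mem_map_ker hA hB H2 hp H1 y hy
    refine Submodule.closure_induction (p := fun y _ => y ∈ D) D.zero_mem
      (fun _ _ _ _ h h' => D.add_mem h h') ?_ h6
    rintro r _ ⟨x, hx, rfl⟩
    have hx2 : x.1.2 = 0 := hx
    have hx1 : p x.1.1 = 0 := by rw [eqL_prop x, hx2, map_zero]
    obtain ⟨z, hz1, hz2, hz3⟩ := h4 r.1.1 x.1.1 hx1
    have : r • rho hA hB x = z := by
      refine eqL.ext hz2.symm ?_
      rw [hz3]
      change r.1.2 * β x.1.2 = 0
      rw [hx2, map_zero, mul_zero]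
    rw [this]
    exact hz1
  refine ⟨⟨F₁ ∪ G, ?_⟩⟩
  rw [← top_le_iff]
  intro x _
  obtain ⟨t, ht, htx⟩ := h2 (eqL.snd p' q' x)
  have h6 : x - t ∈ D := by
    apply h5
    change x.1.2 - t.1.2 = 0
    rw [sub_eq_zero]
    exact htx.symm
  have h7 := D.add_mem h6 ht
  rwa [sub_add_cancel] at h7

end

end Groth.Agent.Old.H23.PushAlg
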