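import Groth.Agent.FlatB.PushMain
import Groth.Agent.FlatB.PushSections
import Groth.Agent.Old.H23.PushAlg
import Mathlib.AlgebraicGeometry.Morphisms.Flat
import Mathlib.AlgebraicGeometry.Morphisms.QuasiFinite
import Mathlib.AlgebraicGeometry.Morphisms.FiniteType

/-!
# Functoriality of the pushout of a closed immersion and an affine morphism

Charts of the morphism between the pushouts.
-/

set_option autoImplicit false

open AlgebraicGeometry CategoryTheory Limits TopologicalSpace Opposite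
open Groth.Agent.FlatB.PushRing Groth.Agent.FlatB.PushPair Groth.Agent.FlatB.PushGlue
open Groth.Agent.FlatB.PushSections

universe u

namespace Groth.Agent.Old.H23.PushMap

variable {X Y Z X' Y' Z' : Scheme.{u}} {i : Z ⟶ X} {j : Z ⟶ Y} {i' : Z' ⟶ X'} {j' : Z' ⟶ Y'}
  {f : X' ⟶ X} {g : Y' ⟶ Y} {h : Z' ⟶ Z} (hX : IsPullback h i' i f) (hY : IsPullback h j' j g)
  {P' : Pair i' j'} {P : Pair i j} (hU : P'.U ≤ f ⁻¹ᵁ P.U) (hV : P'.V ≤ g ⁻¹ᵁ P.V)

include hX hU in
theorem hW : P'.W ≤ h ⁻¹ᵁ P.W := by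
  rw [← P'.hWU, ← P.hWU, ← Scheme.Hom.comp_preimage, hX.w, Scheme.Hom.comp_preimage]
  exact i'.preimage_mono hU

/-- the map on `A` -/
abbrev al : Γ(X, P.U) →+* Γ(X', P'.U) := (f.appLE P.U P'.U hU).hom

/-- the map on `B` -/
abbrev be : Γ(Y, P.V) →+* Γ(Y', P'.V) := (g.appLE P.V P'.V hV).hom

/-- the map on `C` -/
abbrev ga : Γ(Z, P.W) →+* Γ(Z', P'.W) := (h.appLE P.W P'.W (hW hX hU)).hom

theorem hA : P'.p.comp (al hU) = (ga hX hU).comp P.p := by
  have : f.appLE P.U P'.U hU ≫ i'.appLE P'.U P'.W P'.hWU.ge =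
      i.appLE P.U P.W P.hWU.ge ≫ h.appLE P.W P'.W (hW hX hU) := by
    rw [Scheme.Hom.appLE_comp_appLE, Scheme.Hom.appLE_comp_appLE]
    simp only [hX.w]
  exact congrArg CommRingCat.Hom.hom this

include hY in
theorem hB : P'.q.comp (be hV) = (ga hX hU).comp P.q := by
  have : g.appLE P.V P'.V hV ≫ j'.appLE P'.V P'.W P'.hWV.ge =
      j.appLE P.V P.W P.hWV.ge ≫ h.appLE P.W P'.W (hW hX hU) := by
    rw [Scheme.Hom.appLE_comp_appLE, Scheme.Hom.appLE_comp_appLE]
    simp only [hY.w]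
  exact congrArg CommRingCat.Hom.hom this

/-- The map of charts. -/
abbrev rh : P.R →+* P'.R := PushAlg.rho (hA hX hU) (hB hX hY hU hV)

section

variable [IsClosedImmersion i]

theorem H1 : IsPushout (CommRingCat.ofHom P.p) (CommRingCat.ofHom (al hU))
    (CommRingCat.ofHom (ga hX hU)) (CommRingCat.ofHom P'.p) := by
  have hUY : P'.W = h ⁻¹ᵁ P.W ⊓ i' ⁻¹ᵁ P'.U := by
    rw [P'.hWU, right_eq_inf]
    exact hW hX hU
  exact (isIso_pushoutSection_iff ..).mp
    (isIso_pushoutSection_of_isAffineOpen hX hU P.hWU.ge hUY P.hU P'.hU P.hW)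

include hY in
theorem H2 : IsPushout (CommRingCat.ofHom P.q) (CommRingCat.ofHom (be hV))
    (CommRingCat.ofHom (ga hX hU)) (CommRingCat.ofHom P'.q) := by
  have hUY : P'.W = h ⁻¹ᵁ P.W ⊓ j' ⁻¹ᵁ P'.V := by
    rw [P'.hWV, right_eq_inf]
    exact hW hX hU
  exact (isIso_pushoutSection_iff ..).mp
    (isIso_pushoutSection_of_isAffineOpen hY hV P.hWV.ge hUY P.hV P'.hV P.hW)

theorem isPullback_aS : IsPullback (aS P') (Spec.map (CommRingCat.ofHom (al hU)))
    (Spec.map (CommRingCat.ofHom (rh hX hY hU hV))) (aS P) :=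
  (isPullback_SpecMap_of_isPushout _ _ _ _ (PushAlg.isPushout_fst (hA hX hU) (hB hX hY hU hV)
    (H2 hX hY hU hV) P.p_surjective (H1 hX hU))).flip

theorem isPullback_bS : IsPullback (bS P') (Spec.map (CommRingCat.ofHom (be hV)))
    (Spec.map (CommRingCat.ofHom (rh hX hY hU hV))) (bS P) :=
  (isPullback_SpecMap_of_isPushout _ _ _ _ (PushAlg.isPushout_snd (hA hX hU) (hB hX hY hU hV)
    (H2 hX hY hU hV) P.p_surjective (H1 hX hU))).flip

theorem locallyOfFiniteType_rh [LocallyOfFiniteType f] [LocallyOfFiniteType g] :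
    LocallyOfFiniteType (Spec.map (CommRingCat.ofHom (rh hX hY hU hV))) := by
  rw [HasRingHomProperty.Spec_iff (P := @LocallyOfFiniteType)]
  exact PushAlg.finiteType_rho (hA hX hU) (hB hX hY hU hV)
    (H2 hX hY hU hV) P.p_surjective (H1 hX hU) (f.finiteType_appLE P.hU P'.hU hU)
    (g.finiteType_appLE P.hV P'.hV hV)

theorem finite_fibre {S S' T T' : Scheme.{u}} {s : T' ⟶ S'} {v : T' ⟶ T} {u : S' ⟶ S}
    {t : T ⟶ S} (sq : IsPullback s v u t) [LocallyQuasiFinite v] [QuasiCompact v] (x : T) :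
    (u ⁻¹' {t x}).Finite := by
  refine (((v.finite_preimage_singleton x)).image s).subset ?_
  intro w hw
  obtain ⟨z, hz1, hz2⟩ := Scheme.exists_preimage_of_isPullback sq w x hw
  exact ⟨z, hz2, hz1⟩

theorem locallyQuasiFinite_rh [LocallyOfFiniteType f] [LocallyOfFiniteType g]
    [LocallyQuasiFinite f] [LocallyQuasiFinite g] :
    LocallyQuasiFinite (Spec.map (CommRingCat.ofHom (rh hX hY hU hV))) := by
  have := locallyOfFiniteType_rh hX hY hU hV
  have h1 : LocallyQuasiFinite (Spec.map (CommRingCat.ofHom (al hU))) := by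
    rw [HasRingHomProperty.Spec_iff (P := @LocallyQuasiFinite)]
    exact LocallyQuasiFinite.quasiFinite_appLE P.hU P'.hU hU
  have h2 : LocallyQuasiFinite (Spec.map (CommRingCat.ofHom (be hV))) := by
    rw [HasRingHomProperty.Spec_iff (P := @LocallyQuasiFinite)]
    exact LocallyQuasiFinite.quasiFinite_appLE P.hV P'.hV hV
  rw [locallyQuasiFinite_iff_finite_preimage_singleton]
  intro w
  rcases aS_bS_surj w with ⟨x, rfl⟩ | ⟨x, rfl⟩
  · exact finite_fibre (isPullback_aS hX hY hU hV) x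
  · exact finite_fibre (isPullback_bS hX hY hU hV) x

end

section

variable [IsClosedImmersion i] [IsClosedImmersion i']
  (H : ∀ y : Y, ∃ P : Pair i j, y ∈ P.V) (H' : ∀ y : Y', ∃ P : Pair i' j', y ∈ P.V)
  (a : X ⟶ Po i j) (b : Y ⟶ Po i j) (ha : ∀ P : Pair i j, P.hU.fromSpec ≫ a = aS P ≫ ι P)
  (hb : ∀ P : Pair i j, P.hV.fromSpec ≫ b = bS P ≫ ι P)
  (a' : X' ⟶ Po i' j') (b' : Y' ⟶ Po i' j')
  (ha' : ∀ P : Pair i' j', P.hU.fromSpec ≫ a' = aS P ≫ ι P)
  (hb' : ∀ P : Pair i' j', P.hV.fromSpec ≫ b' = bS P ≫ ι P)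
  (k : Po i' j' ⟶ Po i j) (hk1 : a' ≫ k = f ≫ a) (hk2 : b' ≫ k = g ≫ b)

omit [IsClosedImmersion i] [IsClosedImmersion i'] in
theorem fromSpec_al : Spec.map (CommRingCat.ofHom (al hU)) ≫ P.hU.fromSpec =
    P'.hU.fromSpec ≫ f := IsAffineOpen.SpecMap_appLE_fromSpec f P.hU P'.hU hU

omit [IsClosedImmersion i] [IsClosedImmersion i'] in
theorem fromSpec_be : Spec.map (CommRingCat.ofHom (be hV)) ≫ P.hV.fromSpec =
    P'.hV.fromSpec ≫ g := IsAffineOpen.SpecMap_appLE_fromSpec g P.hV P'.hV hV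

include ha hb ha' hb' hk1 hk2 in
theorem ι_comp : ι P' ≫ k = Spec.map (CommRingCat.ofHom (rh hX hY hU hV)) ≫ ι P := by
  apply chart_hom_ext
  · rw [← Category.assoc, ← ha', Category.assoc, hk1, ← Category.assoc, ← Category.assoc,
      (isPullback_aS hX hY hU hV).w, ← fromSpec_al hU, Category.assoc, Category.assoc, ha]
  · rw [← Category.assoc, ← hb', Category.assoc, hk2, ← Category.assoc, ← Category.assoc,
      (isPullback_bS hX hY hU hV).w, ← fromSpec_be hV, Category.assoc, Category.assoc, hb]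

include H H' ha hb ha' hb' hk1 hk2 in
theorem exists_compat (w : Po i' j') : ∃ (P' : Pair i' j') (P : Pair i j),
    P'.U ≤ f ⁻¹ᵁ P.U ∧ P'.V ≤ g ⁻¹ᵁ P.V ∧ w ∈ Set.range (ι P') := by
  obtain ⟨P, hP⟩ : ∃ P : Pair i j, k w ∈ O P := by
    obtain ⟨P, z, hz⟩ := ι_surj (k w)
    exact ⟨P, ⟨z, hz⟩⟩
  obtain ⟨P', hP', hle⟩ := exists_chart (k ⁻¹ᵁ O P) w hP
  refine ⟨P', P, ?_, ?_, hP'⟩
  · rw [← preimage_a_O H' a' ha' P', ← preimage_a_O H a ha P, ← Scheme.Hom.comp_preimage, ← hk1,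
      Scheme.Hom.comp_preimage]
    exact a'.preimage_mono hle
  · rw [← preimage_b_O H' b' hb' P', ← preimage_b_O H b hb P, ← Scheme.Hom.comp_preimage, ← hk2,
      Scheme.Hom.comp_preimage]
    exact b'.preimage_mono hle

/-- Index set of compatible charts. -/
structure CIdx (i : Z ⟶ X) (j : Z ⟶ Y) (i' : Z' ⟶ X') (j' : Z' ⟶ Y') (f : X' ⟶ X) (g : Y' ⟶ Y) :
    Type u where
  /-- the chart upstairs -/
  P' : Pair i' j'
  /-- the chart downstairs -/
  P : Pair i j
  hU : P'.U ≤ f ⁻¹ᵁ P.U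
  hV : P'.V ≤ g ⁻¹ᵁ P.V

/-- The cover by compatible charts. -/
noncomputable def ccov (hc : ∀ w : Po i' j', ∃ (P' : Pair i' j') (P : Pair i j),
    P'.U ≤ f ⁻¹ᵁ P.U ∧ P'.V ≤ g ⁻¹ᵁ P.V ∧ w ∈ Set.range (ι P')) :
    Scheme.OpenCover.{u} (Po i' j') where
  I₀ := CIdx i j i' j' f g
  X x := Spec (CommRingCat.of x.P'.R)
  f x := ι x.P'
  mem₀ := by
    rw [Scheme.presieve₀_mem_precoverage_iff]
    refine ⟨fun w => ?_, inferInstance⟩
    obtain ⟨P', P, hU, hV, hw⟩ := hc w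
    exact ⟨⟨P', P, hU, hV⟩, hw⟩

include hX hY H H' ha hb ha' hb' hk1 hk2 in
theorem isPullback_a_k : IsPullback a' f k a := by
  have hc := exists_compat H H' a b ha hb a' b' ha' hb' k hk1 hk2
  apply Scheme.isPullback_of_openCover a' f k a (ccov hc)
  intro (x : CIdx i j i' j' f g)
  have h1 : IsPullback (aS x.P') x.P'.hU.fromSpec (ι x.P') a' := isPullback_a H' a' ha' _
  have h2 : IsPullback (aS x.P') (x.P'.hU.fromSpec ≫ f) (ι x.P' ≫ k) a := by
    rw [ι_comp hX hY x.hU x.hV a b ha hb a' b' ha' hb' k hk1 hk2, ← fromSpec_al x.hU]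
    exact (isPullback_aS hX hY x.hU x.hV).paste_vert (isPullback_a H a ha x.P)
  change IsPullback (pullback.snd a' (ι x.P')) (pullback.fst a' (ι x.P') ≫ f) (ι x.P' ≫ k) a
  exact IsPullback.of_iso h2 h1.flip.isoPullback (Iso.refl _) (Iso.refl _) (Iso.refl _) (by simp)
    (by simp) (by simp) (by simp)

include hX hY H H' ha hb ha' hb' hk1 hk2 in
theorem isPullback_b_k : IsPullback b' g k b := by
  have hc := exists_compat H H' a b ha hb a' b' ha' hb' k hk1 hk2
  apply Scheme.isPullback_of_openCover b' g k b (ccov hc)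
  intro (x : CIdx i j i' j' f g)
  have h1 : IsPullback (bS x.P') x.P'.hV.fromSpec (ι x.P') b' := isPullback_b H' b' hb' _
  have h2 : IsPullback (bS x.P') (x.P'.hV.fromSpec ≫ g) (ι x.P' ≫ k) b := by
    rw [ι_comp hX hY x.hU x.hV a b ha hb a' b' ha' hb' k hk1 hk2, ← fromSpec_be x.hV]
    exact (isPullback_bS hX hY x.hU x.hV).paste_vert (isPullback_b H b hb x.P)
  change IsPullback (pullback.snd b' (ι x.P')) (pullback.fst b' (ι x.P') ≫ g) (ι x.P' ≫ k) b
  exact IsPullback.of_iso h2 h1.flip.isoPullback (Iso.refl _) (Iso.refl _) (Iso.refl _) (by simp)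
    (by simp) (by simp) (by simp)

include hX hY H H' ha hb ha' hb' hk1 hk2 in
theorem locallyOfFiniteType_k [LocallyOfFiniteType f] [LocallyOfFiniteType g] :
    LocallyOfFiniteType k := by
  have hc := exists_compat H H' a b ha hb a' b' ha' hb' k hk1 hk2
  refine (IsZariskiLocalAtSource.iff_of_openCover (P := @LocallyOfFiniteType) (ccov hc)).mpr
    fun (x : CIdx i j i' j' f g) => ?_
  change LocallyOfFiniteType (ι x.P' ≫ k)
  rw [ι_comp hX hY x.hU x.hV a b ha hb a' b' ha' hb' k hk1 hk2]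
  have := locallyOfFiniteType_rh hX hY x.hU x.hV
  infer_instance

include hX hY H H' ha hb ha' hb' hk1 hk2 in
theorem locallyQuasiFinite_k [LocallyOfFiniteType f] [LocallyOfFiniteType g]
    [LocallyQuasiFinite f] [LocallyQuasiFinite g] : LocallyQuasiFinite k := by
  have hc := exists_compat H H' a b ha hb a' b' ha' hb' k hk1 hk2
  refine (IsZariskiLocalAtSource.iff_of_openCover (P := @LocallyQuasiFinite) (ccov hc)).mpr
    fun (x : CIdx i j i' j' f g) => ?_
  change LocallyQuasiFinite (ι x.P' ≫ k)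
  rw [ι_comp hX hY x.hU x.hV a b ha hb a' b' ha' hb' k hk1 hk2]
  have := locallyQuasiFinite_rh hX hY x.hU x.hV
  infer_instance

end

end Groth.Agent.Old.H23.PushMap
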