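import Groth.Agent.S1442
import Mathlib.AlgebraicGeometry.ZariskisMainTheorem
import Mathlib.AlgebraicGeometry.Morphisms.Integral

/-!
# Affine neighbourhoods of fibres of integral morphisms in quasi-finite separated schemes
-/

set_option autoImplicit false

open AlgebraicGeometry CategoryTheory Limits TopologicalSpace Opposite

universe u

namespace Groth.Agent.Old.H23.PushQf

/-- If `m : F ⟶ N` is a morphism of affine schemes, `Γ(F, ⊤)` is integral over a field and `m`
lands in the open `W` then there is a basic open of `N` contained in `W` containing the image. -/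
theorem exists_basicOpen {K : Type*} [Field K] {F N : Scheme.{u}} [IsAffine F] [IsAffine N]
    [Algebra K Γ(F, ⊤)] [Algebra.IsIntegral K Γ(F, ⊤)] (m : F ⟶ N) (W : N.Opens)
    (h : ∀ x, m x ∈ W) : ∃ a : Γ(N, ⊤), N.basicOpen a ≤ W ∧ ∀ x, m x ∈ N.basicOpen a := by
  let φ : Γ(N, ⊤) →+* Γ(F, ⊤) := m.appTop.hom
  have hbo : ∀ a : Γ(N, ⊤), F.basicOpen (φ a) = m ⁻¹ᵁ (N.basicOpen a) := by
    intro a
    exact (Scheme.preimage_basicOpen_top m a).symm
  have hmap : (S1442.suppIdeal ⊤ W).map φ = ⊤ := by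
    by_contra hne
    obtain ⟨M, hM, hle'⟩ := Ideal.exists_le_maximal _ hne
    have hmp : M.IsPrime := hM.isPrime
    let p : PrimeSpectrum Γ(F, ⊤) := ⟨M, hmp⟩
    let x : F := (isAffineOpen_top F).fromSpec p
    obtain ⟨a, haW, hxa⟩ := (isAffineOpen_top N).exists_basicOpen_le ⟨_, h x⟩ trivial
    have ha : a ∈ S1442.suppIdeal ⊤ W := haW
    have h1 : φ a ∈ M := hle' (Ideal.mem_map_of_mem _ ha)
    have h2 : x ∈ F.basicOpen (φ a) := by
      rw [hbo]; exact hxa
    have h3 : p ∈ PrimeSpectrum.basicOpen (φ a) := by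
      have := (isAffineOpen_top F).fromSpec_preimage_basicOpen (φ a)
      rw [← this]
      exact h2
    exact h3 h1
  obtain ⟨a, ha, hu⟩ := S1442.exists_isUnit_of_map_eq_top (K := K) φ _ hmap
  refine ⟨a, ha, fun x => ?_⟩
  have h1 : F.basicOpen (φ a) = ⊤ := F.basicOpen_of_isUnit hu
  rw [hbo] at h1
  have : x ∈ m ⁻¹ᵁ (N.basicOpen a) := by rw [h1]; trivial
  exact this

/-- Variant for the fibre of an integral morphism. -/
theorem exists_basicOpen_fiber {Y Z N : Scheme.{u}} [IsAffine N] (j : Z ⟶ Y) [IsIntegralHom j]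
    (y : Y) (m : j.fiber y ⟶ N) (W : N.Opens) (h : ∀ x, m x ∈ W) :
    ∃ a : Γ(N, ⊤), N.basicOpen a ≤ W ∧ ∀ x, m x ∈ N.basicOpen a := by
  let F := j.fiber y
  have hint : IsIntegralHom (j.fiberToSpecResidueField y) := by
    exact MorphismProperty.pullback_snd (P := @IsIntegralHom) j (Y.fromSpecResidueField y)
      inferInstance
  let K := Y.residueField y
  let alg : K →+* Γ(F, ⊤) := ((Scheme.ΓSpecIso (Y.residueField y)).inv ≫
    (j.fiberToSpecResidueField y).appTop).hom
  let _ : Algebra K Γ(F, ⊤) := alg.toAlgebra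
  have : Algebra.IsIntegral K Γ(F, ⊤) := by
    rw [← algebraMap_isIntegral_iff]
    change alg.IsIntegral
    have h1 : ((j.fiberToSpecResidueField y).appTop).hom.IsIntegral :=
      (j.fiberToSpecResidueField y).isIntegral_app ⊤ (isAffineOpen_top _)
    have h2 : ((Scheme.ΓSpecIso (Y.residueField y)).inv).hom.IsIntegral :=
      RingHom.isIntegral_of_surjective _
        (ConcreteCategory.bijective_of_isIso (Scheme.ΓSpecIso (Y.residueField y)).inv).2
    exact RingHom.IsIntegral.trans _ _ h2 h1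
  have : IsAffine F := inferInstance
  exact exists_basicOpen (K := K) (F := F) m W h

/-- Key statement: affine neighbourhoods of fibres of integral morphisms upstairs. -/
theorem exists_affine {X X' Y Z : Scheme.{u}} (f : X' ⟶ X) [IsSeparated f] [LocallyQuasiFinite f]
    [LocallyOfFiniteType f] (i : Z ⟶ X') (j : Z ⟶ Y) [IsIntegralHom j] (y : Y)
    (U : X.Opens) (hU : IsAffineOpen U) (hy : ∀ z, j z = y → f (i z) ∈ U) :
    ∃ V : X'.Opens, IsAffineOpen V ∧ ∀ z, j z = y → i z ∈ V := by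
  -- a quasi-compact open `V₀` containing the image of the fibre
  have hK : IsCompact (i '' (j ⁻¹' {y})) := (j.isCompact_preimage_singleton y).image i.continuous
  obtain ⟨V₀, hV₀c, hV₀o, hKV, hVU⟩ := PrespectralSpace.exists_isCompact_and_isOpen_between
    (U := ((f ⁻¹ᵁ U : X'.Opens) : Set X')) hK (f ⁻¹ᵁ U).isOpen
    (by rintro _ ⟨z, hz, rfl⟩; exact hy z hz)
  let V : X'.Opens := ⟨V₀, hV₀o⟩
  have hVU' : V ≤ f ⁻¹ᵁ U := hVU
  have : IsAffine U := hU
  have : CompactSpace V := isCompact_iff_compactSpace.mp hV₀c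
  let fV : V.toScheme ⟶ U.toScheme := f.resLE U V hVU'
  have hsep : IsSeparated fV := inferInstance
  have hqc : QuasiCompact fV := inferInstance
  have hN : IsAffine fV.normalization := isAffine_of_isAffineHom fV.fromNormalization
  -- the fibre maps to `V`
  have hF : Set.range (j.fiberι y ≫ i) ⊆ Set.range V.ι := by
    rintro _ ⟨x, rfl⟩
    rw [Scheme.Opens.range_ι]
    apply hKV
    refine ⟨j.fiberι y x, ?_, by rw [Scheme.Hom.comp_apply]⟩
    have : j.fiberι y x ∈ Set.range (j.fiberι y) := ⟨x, rfl⟩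
    rwa [Scheme.Hom.range_fiberι] at this
  let m₀ : j.fiber y ⟶ V := IsOpenImmersion.lift V.ι (j.fiberι y ≫ i) hF
  have hm₀ : m₀ ≫ V.ι = j.fiberι y ≫ i := IsOpenImmersion.lift_fac _ _ _
  obtain ⟨a, ha1, ha2⟩ := exists_basicOpen_fiber j y (m₀ ≫ fV.toNormalization)
    fV.toNormalization.opensRange (fun x => ⟨m₀ x, by rw [Scheme.Hom.comp_apply]⟩)
  have hV₁ : IsAffineOpen (fV.toNormalization ⁻¹ᵁ (fV.normalization.basicOpen a)) :=
    ((isAffineOpen_top fV.normalization).basicOpen a).preimage_of_isOpenImmersion _ ha1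
  refine ⟨V.ι ''ᵁ (fV.toNormalization ⁻¹ᵁ (fV.normalization.basicOpen a)),
    hV₁.image_of_isOpenImmersion V.ι, ?_⟩
  intro z hz
  obtain ⟨x, rfl⟩ : z ∈ Set.range (j.fiberι y) := by rw [Scheme.Hom.range_fiberι]; exact hz
  refine ⟨m₀ x, ?_, ?_⟩
  · have := ha2 x
    rw [Scheme.Hom.comp_apply] at this
    exact this
  · have h1 : (m₀ ≫ V.ι) x = (j.fiberι y ≫ i) x := by rw [hm₀]
    rw [Scheme.Hom.comp_apply, Scheme.Hom.comp_apply] at h1
    exact h1

end Groth.Agent.Old.H23.PushQf
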